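import Cfsg.Agent.H340.ExcEmb
import Cfsg.Agent.KFacts.TwF4.Full
/-!
# `2F4(q)`, `q ≥ 8`, is big (helper829)

`Q = x₁ … x₇` is the unipotent radical of the parabolic subgroup of Suzuki type, with centre `z(u) = x₄(0,u)`; the pairs
`(x₃(s), x₆(t,0))`, `(x₅(s), x₂(t,0))`, `(x₆(0,s), x₁(t))`, `(x₂(0,s), x₇(t))` have commutators `x₄(0,st)`.
-/

set_option autoImplicit false

namespace Cfsg.Agent.H829.BigTwF

open Cfsg Cfsg.Lie Cfsg.Agent.KFacts.TwF4 Cfsg.Agent.KFacts.TwF4.Inst Cfsg.Agent.H340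
open Cfsg.Agent.ChevalleyStructure.TwF4.TwistedFix (Rln exists_rln)
open Cfsg.Agent.TitsThree.RankTwoZ Cfsg.Agent.SplitTwo

universe u v

section Abs

variable {F : Type u} [Field F] {σ : F →+* F} {G : Type v} [Group G] (S : Sys σ G)

theorem e_zero (a : ZMod 8) : S.e a 0 0 = 1 := by
  have h := S.e_mul a 0 0 0 0
  rw [map_zero, mul_zero, add_zero, add_zero] at h
  exact left_eq_mul.1 h.symm

theorem o_zero (a : ZMod 8) : S.o a 0 = 1 := by
  have h := S.o_add a 0 0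
  rw [add_zero] at h
  exact left_eq_mul.1 h.symm

/-- `x₄(0,u)` has order two -/
theorem z_sq [CharP F 2] (a : ZMod 8) (u : F) : S.e a 0 u * S.e a 0 u = 1 := by
  rw [S.e_mul, map_zero, mul_zero, add_zero, add_zero, CharTwo.add_self_eq_zero, e_zero]

theorem o_sq [CharP F 2] (a : ZMod 8) (u : F) : S.o a u * S.o a u = 1 := by
  rw [S.o_add, CharTwo.add_self_eq_zero, o_zero]

/-- `e a` and `o a` are the root groups `X_{2a}` and `X_{2a+1}`. -/
theorem fc [CharP F 2] (T : Subgroup G) (h1 : ∀ t, S.o 0 t ∈ T) (h2 : ∀ p u, S.e 1 p u ∈ T) (h3 : ∀ t, S.o 1 t ∈ T)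
    (h4 : ∀ p u, S.e 2 p u ∈ T) (h5 : ∀ t, S.o 2 t ∈ T) (h6 : ∀ p u, S.e 3 p u ∈ T) (h7 : ∀ t, S.o 3 t ∈ T) :
    Deg.FC T F 4 := by
  let X1 : F → T := fun t => ⟨S.o 0 t, h1 t⟩
  let X2 : F → F → T := fun p u => ⟨S.e 1 p u, h2 p u⟩
  let X3 : F → T := fun t => ⟨S.o 1 t, h3 t⟩
  let X4 : F → F → T := fun p u => ⟨S.e 2 p u, h4 p u⟩
  let X5 : F → T := fun t => ⟨S.o 2 t, h5 t⟩
  let X6 : F → F → T := fun p u => ⟨S.e 3 p u, h6 p u⟩
  let X7 : F → T := fun t => ⟨S.o 3 t, h7 t⟩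
  have z1 : ∀ a, S.e a 0 0 = 1 := e_zero S
  have zo : ∀ a, S.o a 0 = 1 := o_zero S
  have R := S.rel
  have k4 : ∀ s t, X4 0 (s + t) = X4 0 s * X4 0 t := fun s t => Subtype.ext (by
    change S.e 2 0 (s + t) = S.e 2 0 s * S.e 2 0 t
    rw [S.e_mul, map_zero, mul_zero, add_zero, add_zero])
  have q1 : ∀ s t, X1 s * X4 0 t = X4 0 t * X1 s := fun s t => Subtype.ext (by
    have h := R.r14 s 0 t
    rw [mul_zero, z1, mul_one] at h
    exact h)
  have q2 : ∀ p s t, X2 p s * X4 0 t = X4 0 t * X2 p s := fun p s t => Subtype.ext (by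
    have h := R.r24 p s 0 t
    rw [mul_zero, zo, mul_one] at h
    exact h)
  have q3 : ∀ s t, X3 s * X4 0 t = X4 0 t * X3 s := fun s t => Subtype.ext (R.r34 s 0 t)
  have q5 : ∀ s t, X5 s * X4 0 t = X4 0 t * X5 s := fun s t => Subtype.ext (R.r45 0 t s).symm
  have q6 : ∀ p s t, X6 p s * X4 0 t = X4 0 t * X6 p s := fun p s t => Subtype.ext (by
    have h := R.r46 0 t p s
    rw [zero_mul, zo, mul_one] at h
    exact h.symm)
  have q7 : ∀ s t, X7 s * X4 0 t = X4 0 t * X7 s := fun s t => Subtype.ext (by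
    have h := R.r47 0 t s
    rw [zero_mul, z1, mul_one] at h
    exact h.symm)
  have z4 : ∀ t, X4 0 t * X4 0 t = 1 := fun t => Subtype.ext (z_sq S 2 t)
  have z2 : ∀ t, X2 0 t * X2 0 t = 1 := fun t => Subtype.ext (z_sq S 1 t)
  have z6 : ∀ t, X6 0 t * X6 0 t = 1 := fun t => Subtype.ext (z_sq S 3 t)
  have z3 : ∀ t, X3 t * X3 t = 1 := fun t => Subtype.ext (o_sq S 1 t)
  have z5 : ∀ t, X5 t * X5 t = 1 := fun t => Subtype.ext (o_sq S 2 t)
  have e3 : ∀ s t, X3 s * X3 t = X3 t * X3 s := fun s t => Subtype.ext (by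
    change S.o 1 s * S.o 1 t = S.o 1 t * S.o 1 s
    rw [S.o_add, S.o_add, add_comm])
  have e5 : ∀ s t, X5 s * X5 t = X5 t * X5 s := fun s t => Subtype.ext (by
    change S.o 2 s * S.o 2 t = S.o 2 t * S.o 2 s
    rw [S.o_add, S.o_add, add_comm])
  have e6 : ∀ s p t, X6 0 s * X6 p t = X6 p t * X6 0 s := fun s p t => Subtype.ext (by
    change S.e 3 0 s * S.e 3 p t = S.e 3 p t * S.e 3 0 s
    rw [S.e_mul, S.e_mul, map_zero, mul_zero, zero_mul, add_comm 0 p, add_comm s t])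
  have e2 : ∀ s p t, X2 0 s * X2 p t = X2 p t * X2 0 s := fun s p t => Subtype.ext (by
    change S.e 1 0 s * S.e 1 p t = S.e 1 p t * S.e 1 0 s
    rw [S.e_mul, S.e_mul, map_zero, mul_zero, zero_mul, add_comm 0 p, add_comm s t])
  have e35 : ∀ s t, X3 s * X5 t = X5 t * X3 s := fun s t => Subtype.ext (R.r35 s t)
  have e36 : ∀ s t, X3 s * X6 0 t = X6 0 t * X3 s := fun s t => Subtype.ext (by
    have h := R.r36 s 0 t
    rw [mul_zero, z1, mul_one] at h
    exact h)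
  have e36' : ∀ s t, X3 s * X6 t 0 = X6 t 0 * X3 s * X4 0 (s * t) := fun s t => Subtype.ext (R.r36 s t 0)
  have e23 : ∀ p s t, X2 p s * X3 t = X3 t * X2 p s := fun p s t => Subtype.ext (R.r23 p s t)
  have e56 : ∀ s p t, X5 s * X6 p t = X6 p t * X5 s := fun s p t => Subtype.ext (R.r56 s p t)
  have e25 : ∀ s t, X2 0 s * X5 t = X5 t * X2 0 s := fun s t => Subtype.ext (by
    have h := R.r25 0 s t
    rw [zero_mul, z1, mul_one] at h
    exact h)
  have e25' : ∀ s t, X5 s * X2 t 0 = X2 t 0 * X5 s * X4 0 (s * t) := fun s t => by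
    have h : X2 t 0 * X5 s = X5 s * X2 t 0 * X4 0 (t * s) := Subtype.ext (R.r25 t 0 s)
    rw [h, mul_comm t s, mul_assoc, z4, mul_one]
  have e26 : ∀ p s q t, X2 p s * X6 q t = X6 q t * X2 p s := fun p s q t => Subtype.ext (R.r26 p s q t)
  have e13 : ∀ s t, X1 s * X3 t = X3 t * X1 s := fun s t => Subtype.ext (R.r13 s t)
  have e15 : ∀ s t, X1 s * X5 t = X5 t * X1 s := fun s t => Subtype.ext (R.r15 s t)
  have e12 : ∀ s p t, X1 s * X2 p t = X2 p t * X1 s := fun s p t => Subtype.ext (R.r12 s p t)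
  have e16 : ∀ s t, X6 0 s * X1 t = X1 t * X6 0 s * X4 0 (s * t) := fun s t => by
    have h : X1 t * X6 0 s = X6 0 s * X1 t * X4 0 (t * s) := Subtype.ext (by
      have h := R.r16 t 0 s
      rw [mul_zero, map_zero, mul_zero, mul_zero, z1, zo, mul_one, mul_one, zero_add] at h
      exact h)
    rw [h, mul_comm t s, mul_assoc, z4, mul_one]
  have e37 : ∀ s t, X3 s * X7 t = X7 t * X3 s := fun s t => Subtype.ext (R.r37 s t)
  have e57 : ∀ s t, X5 s * X7 t = X7 t * X5 s := fun s t => Subtype.ext (R.r57 s t)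
  have e67 : ∀ p s t, X6 p s * X7 t = X7 t * X6 p s := fun p s t => Subtype.ext (R.r67 p s t)
  have e27 : ∀ s t, X2 0 s * X7 t = X7 t * X2 0 s * X4 0 (s * t) := fun s t => Subtype.ext (by
    have h := R.r27 0 s t
    rw [zero_mul, zero_mul, map_zero, zero_mul, zero_mul, z1, zo, mul_one, mul_one, zero_add] at h
    exact h)
  refine ⟨X4 0, ![X3, X5, X6 0, X2 0], ![fun t => X6 t 0, fun t => X2 t 0, X1, X7], ⟨1, ?_⟩, k4, ?_, ?_, ?_, ?_, ?_, ?_⟩
  · intro h
    have h1 : S.e 2 0 1 = S.e 2 0 0 := (congrArg Subtype.val h).trans (z1 2).symm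
    exact one_ne_zero (S.injE _ _ _ _ _ h1).2
  · intro i s
    fin_cases i
    · exact z3 s
    · exact z5 s
    · exact z6 s
    · exact z2 s
  · intro i s t
    fin_cases i
    · exact q3 s t
    · exact q5 s t
    · exact q6 0 s t
    · exact q2 0 s t
  · intro i s t
    fin_cases i
    · exact q6 s 0 t
    · exact q2 s 0 t
    · exact q1 s t
    · exact q7 s t
  · intro i j s t
    fin_cases i <;> fin_cases j
    · exact e3 s t
    · exact e35 s t
    · exact e36 s t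
    · exact (e23 0 t s).symm
    · exact (e35 t s).symm
    · exact e5 s t
    · exact e56 s 0 t
    · exact (e25 t s).symm
    · exact (e36 t s).symm
    · exact (e56 t 0 s).symm
    · exact e6 s 0 t
    · exact (e26 0 t 0 s).symm
    · exact e23 0 s t
    · exact e25 s t
    · exact e26 0 s 0 t
    · exact e2 s 0 t
  · intro i s t
    fin_cases i
    · exact e36' s t
    · exact e25' s t
    · exact e16 s t
    · exact e27 s t
  · intro i j hij s t
    fin_cases i <;> fin_cases j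
    · exact absurd rfl hij
    · exact (e23 t 0 s).symm
    · exact (e13 t s).symm
    · exact e37 s t
    · exact e56 s t 0
    · exact absurd rfl hij
    · exact (e15 t s).symm
    · exact e57 s t
    · exact e6 s t 0
    · exact (e26 t 0 0 s).symm
    · exact absurd rfl hij
    · exact e67 0 s t
    · exact e26 0 s t 0
    · exact e2 s t 0
    · exact (e12 t 0 s).symm
    · exact absurd rfl hij

end Abs

/-- **`2F4(q)`, `q = 2^(2m+1) ≥ 8`, is big.** -/
theorem big_twF {K : Type u} [Field K] [Fintype K] {m : ℕ} (hm : 1 ≤ m) (hK : Fintype.card K = 2 ^ (2 * m + 1)) :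
    Big ↥(twistedF4 K (2 ^ m)) := by
  have : Fact (Nat.Prime 2) := ⟨Nat.prime_two⟩
  have hc : CharP K 2 := by
    obtain ⟨r, hr⟩ := CharP.exists K
    have hrp : r.Prime := (CharP.char_is_prime_or_zero K r).resolve_right (CharP.char_ne_zero_of_finite K r)
    have := Fact.mk hrp
    obtain ⟨n, -, hn⟩ := FiniteField.card K r
    have h3 : r ∣ 2 ^ (2 * m + 1) := by rw [← hK, hn]; exact dvd_pow_self r n.ne_zero
    rw [(Nat.prime_dvd_prime_iff_eq hrp Nat.prime_two).1 (hrp.dvd_of_dvd_pow h3)] at hr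
    exact hr
  obtain ⟨φ, hφ⟩ := exists_rln hK
  have hF : ∃ ω : K, ω ≠ 0 ∧ ω ≠ 1 := by
    by_contra hcon
    push Not at hcon
    have h1 : Fintype.card K ≤ 2 := by
      classical
      have h2 : (Finset.univ : Finset K) ⊆ {0, 1} := by
        intro x _
        by_cases h : x = 0
        · simp [h]
        · simp [hcon x h]
      exact (Finset.card_le_card h2).trans Finset.card_le_two
    rw [hK] at h1
    have h2 : 2 ^ (2 * 1 + 1) ≤ 2 ^ (2 * m + 1) := Nat.pow_le_pow_right (by norm_num) (by omega)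
    omega
  let S := full hK hφ
  have hX : ∀ k : ℕ, 1 ≤ k → k ≤ 8 → S.R.X ((k : ℕ) : ZMod (2 * 8)) ≤ Cfsg.Agent.Schreier.TwFFour.U0 K (2 ^ m) :=
    fun k h1 h2 => XX_pos k h1 h2
  have ho : ∀ (a : ZMod 8) (k : ℕ), od a = ((k : ℕ) : ZMod (2 * 8)) → 1 ≤ k → k ≤ 8 → ∀ t,
      S.o a t ∈ Cfsg.Agent.Schreier.TwFFour.U0 K (2 ^ m) := fun a k hk h1 h2 t =>
    hX k h1 h2 (hk ▸ (S.mem_odd a _).2 ⟨t, rfl⟩)
  have he : ∀ (a : ZMod 8) (k : ℕ), ev a = ((k : ℕ) : ZMod (2 * 8)) → 1 ≤ k → k ≤ 8 → ∀ p u,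
      S.e a p u ∈ Cfsg.Agent.Schreier.TwFFour.U0 K (2 ^ m) := fun a k hk h1 h2 p u =>
    hX k h1 h2 (hk ▸ (S.mem_even a _).2 ⟨p, u, rfl⟩)
  refine Big.of_FC hF (m := 4) le_rfl (Cfsg.Agent.Schreier.TwFFour.U0 K (2 ^ m))
    (Cfsg.Agent.Schreier.TwFFour.isPGroup_U0 hK) (fc S.toSys _ ?_ ?_ ?_ ?_ ?_ ?_ ?_)
  · exact ho 0 1 (by decide) (by norm_num) (by norm_num)
  · exact he 1 2 (by decide) (by norm_num) (by norm_num)
  · exact ho 1 3 (by decide) (by norm_num) (by norm_num)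
  · exact he 2 4 (by decide) (by norm_num) (by norm_num)
  · exact ho 2 5 (by decide) (by norm_num) (by norm_num)
  · exact he 3 6 (by decide) (by norm_num) (by norm_num)
  · exact ho 3 7 (by decide) (by norm_num) (by norm_num)

end Cfsg.Agent.H829.BigTwF
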