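import Cfsg.Agent.H829.TwFNo
import Cfsg.Agent.H829.ExcComp
import Cfsg.Agent.H292.PslTwo
import Cfsg.Agent.H292.PsuTwo
import Cfsg.Agent.H292.PspTwo
import Cfsg.Agent.H292.OrthTwo
import Cfsg.Agent.CpAut.TwoAbs
/-!
# `2F4(q)`, `q ≥ 8`, is not a component of the fixed points of an involutory automorphism of a classical group in
characteristic two (helper829)
-/

set_option autoImplicit false

namespace Cfsg.Agent.H829.TwFClass

open Cfsg Cfsg.Lie Cfsg.Agent.H292.Out Cfsg.Agent.H829.TwFNo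

universe u v w

/-- no involutory automorphism of `X` has a component `2F4(2^(2m+1))` -/
def NoComp (m : ℕ) (X : Type u) [Group X] : Prop :=
  ∀ x : MulAut X, x ^ 2 = 1 → x ≠ 1 → ∀ D : Subgroup ↥(fixedSubgroup x), IsComponent D → ¬ Is m ↥D

theorem NoComp.congr {m : ℕ} {X : Type u} {Y : Type v} [Group X] [Group Y] (e : X ≃* Y) (h : NoComp m X) :
    NoComp m Y := by
  intro x hx hx1 A hA hI
  obtain ⟨y, hy⟩ : ∃ y : MulAut X, y = (MulAut.congr e).symm x := ⟨_, rfl⟩
  have hxy : MulAut.congr e y = x := by rw [hy, MulEquiv.apply_symm_apply]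
  subst hxy
  have h2 : y ^ 2 = 1 := by
    rw [← map_pow] at hx
    exact (MulAut.congr e).injective (by rw [hx, map_one])
  have h3 : y ≠ 1 := by
    rintro rfl
    exact hx1 (map_one _)
  have f := CpAut.fixEquiv e y
  exact h y h2 h3 (A.map f.symm.toMonoidHom)
    (Cfsg.Agent.SignalizersComponents.Components.isComponent_map_equiv f.symm hA)
    (hI.congr (A.equivMapOfInjective f.symm.toMonoidHom f.symm.injective).symm)

/-- an involution centralizing all the fixed points -/
theorem no_comp_cen {X : Type u} [Group X] [Finite X] (hct : IsCharacteristicTwoType X) {x : MulAut X}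
    (hx : x ^ 2 = 1) (h : Cen x) {D : Subgroup ↥(fixedSubgroup x)} (hD : IsComponent D) : False := by
  obtain ⟨z, hz1, hzz, hxz, hc⟩ := h
  have hz : orderOf z = 2 := orderOf_eq_prime (by rw [pow_two, hzz]) hz1
  have h1 := Cfsg.Agent.EvenType.CharTwoCent.char2_centralizer hct hz
  let u : ↥(fixedSubgroup x) := ⟨z, hxz⟩
  have h2 := CpAut.TwoAbs.ct_cent_fix (x := x) (by rw [← pow_two, hx]) u h1
  have h3 : D ≤ Subgroup.centralizer ({u} : Set ↥(fixedSubgroup x)) := by
    intro d _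
    rw [Subgroup.mem_centralizer_singleton_iff]
    exact Subtype.ext (hc d d.2)
  exact CpAut.TwoAbs.no_component_of_ct h2 _
    (Cfsg.Agent.SignalizersComponents.Components.isComponent_subgroupOf h3 hD)

theorem charP_of_card {F : Type} [Field F] [Finite F] {k c : ℕ} (hk : k ≠ 0) (h : 2 ^ c = Nat.card F ^ k) :
    CharP F 2 := by
  obtain ⟨r, hr⟩ := CharP.exists F
  have := Fintype.ofFinite F
  have hrp : r.Prime := (CharP.char_is_prime_or_zero F r).resolve_right (CharP.char_ne_zero_of_finite F r)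
  have := Fact.mk hrp
  obtain ⟨n, -, hn⟩ := FiniteField.card F r
  have h3 : r ∣ 2 ^ c := by
    rw [h, Nat.card_eq_fintype_card, hn]
    exact dvd_pow (dvd_pow_self r n.ne_zero) hk
  rw [(Nat.prime_dvd_prime_iff_eq hrp Nat.prime_two).1 (hrp.dvd_of_dvd_pow h3)] at hr
  exact hr

section rows

variable {m : ℕ} (hm : 1 ≤ m)

include hm

theorem no_psl {F : Type} [Field F] [Fintype F] [CharP F 2] {n : ℕ} (hn : 2 ≤ n) (hn2 : n = 2 → 4 ≤ Fintype.card F) :
    NoComp m (Matrix.ProjectiveSpecialLinearGroup (Fin n) F) := by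
  intro x hx hx1 D hD hI
  have hs := H183.OutPSL.simple_psl hn hn2
  have hna : ¬ IsMulCommutative (Matrix.ProjectiveSpecialLinearGroup (Fin n) F) := by
    intro h
    have h1 := H183.OutPSL.center_psl (F := F) hn hn2
    have h2 : Subgroup.center (Matrix.ProjectiveSpecialLinearGroup (Fin n) F) = ⊤ := by
      rw [eq_top_iff]
      intro g _
      rw [Subgroup.mem_center_iff]
      exact fun y => h.is_comm.comm y g
    rw [h1] at h2
    exact hs.toNontrivial.exists_pair_ne.elim fun a ⟨b, hab⟩ => hab (by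
      have ha : a ∈ (⊥ : Subgroup (Matrix.ProjectiveSpecialLinearGroup (Fin n) F)) := by rw [h2]; exact Subgroup.mem_top _
      have hb : b ∈ (⊥ : Subgroup (Matrix.ProjectiveSpecialLinearGroup (Fin n) F)) := by rw [h2]; exact Subgroup.mem_top _
      rw [Subgroup.mem_bot.1 ha, Subgroup.mem_bot.1 hb])
  have hL : IsLieTypeChar 2 (Matrix.ProjectiveSpecialLinearGroup (Fin n) F) :=
    Or.inl ⟨F, inferInstance, inferInstance, inferInstance, n, hn, hn2, ⟨MulEquiv.refl _⟩⟩
  obtain ⟨c, hc, hF⟩ := card_two_pow (F := F)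
  rcases H292.PslTwo.out hn hx hx1 with ⟨g, rfl⟩ | h | ⟨F₀, _, _, hF0, h⟩ | ⟨hn3, q, hq, h⟩ | ⟨hn3, k, hk, h⟩
  · exact ExcComp.no_comp_inner hna (Or.inl hL) hx hx1 hD
  · exact no_comp_cen (EvenType.ChevTwo.charTwo hna (Or.inl hL)) hx h hD
  · have : CharP F₀ 2 := charP_of_card (k := 2) (c := c) two_ne_zero (by rw [← hF, hF0, Nat.card_eq_fintype_card])
    exact not_psl hD hm hI hn h
  · exact not_psu hD hm hI hq hn3 h
  · exact not_psp hD hm hI h

theorem no_psu {F : Type} [Field F] [Fintype F] [CharP F 2] {n q : ℕ} (hF : Fintype.card F = q ^ 2) (hn : 3 ≤ n)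
    (h32 : ¬ (n = 3 ∧ q = 2)) (hna : ¬ IsMulCommutative (PSU n F q)) : NoComp m (PSU n F q) := by
  intro x hx hx1 D hD hI
  have hs := Cfsg.Agent.S0283.result hF n hn h32
  have hfin : Finite (PSU n F q) := Finite.of_surjective _ (QuotientGroup.mk'_surjective _)
  have hL : IsLieTypeChar 2 (PSU n F q) :=
    Or.inr (Or.inr (Or.inl ⟨F, inferInstance, inferInstance, inferInstance, n, q, hF, hn, h32, ⟨MulEquiv.refl _⟩⟩))
  obtain ⟨c, hc, hFc⟩ := card_two_pow (F := F)
  rcases H292.PsuTwo.out hF hn h32 hx hx1 with ⟨g, rfl⟩ | h | ⟨k, -, F₀, _, _, hF0, h⟩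
  · exact ExcComp.no_comp_inner hna (Or.inl hL) hx hx1 hD
  · exact no_comp_cen (EvenType.ChevTwo.charTwo hna (Or.inl hL)) hx h hD
  · have : CharP F₀ 2 := charP_of_card (k := 2) (c := c) two_ne_zero (by
      rw [← hFc, hF, Nat.card_eq_fintype_card, hF0])
    exact not_psp hD hm hI h

theorem no_psp {F : Type} [Field F] [Fintype F] [CharP F 2] {n : ℕ} (hn : 2 ≤ n) (hn2 : n = 2 → 3 ≤ Fintype.card F)
    (hna : ¬ IsMulCommutative (PSp n F)) : NoComp m (PSp n F) := by
  intro x hx hx1 D hD hI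
  rcases Nat.lt_or_ge n 3 with hlt | hge
  · obtain ⟨K, _, _, hK, ⟨e⟩⟩ := hI
    exact TwFEight.not_psp hK (by omega : n ≤ 2)
      (((fixedSubgroup x).subtype.comp D.subtype).comp e.symm.toMonoidHom)
      (((Subgroup.subtype_injective _).comp (Subgroup.subtype_injective _)).comp e.symm.injective)
  · have hs := Cfsg.Agent.S0270.result (F := F) n hn hn2
    have hfin : Finite (PSp n F) := Finite.of_surjective _ (QuotientGroup.mk'_surjective _)
    have hL : IsLieTypeChar 2 (PSp n F) :=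
      Or.inr (Or.inl ⟨F, inferInstance, inferInstance, inferInstance, n, hn, hn2, ⟨MulEquiv.refl _⟩⟩)
    obtain ⟨c, hc, hFc⟩ := card_two_pow (F := F)
    rcases H292.PspTwo.out hge hx with ⟨g, rfl⟩ | ⟨F₀, _, _, hF0, h⟩
    · exact ExcComp.no_comp_inner hna (Or.inl hL) hx hx1 hD
    · have : CharP F₀ 2 := charP_of_card (k := 2) (c := c) two_ne_zero (by rw [← hFc, hF0, Nat.card_eq_fintype_card])
      exact not_psp hD hm hI h

theorem no_plus {F : Type} [Field F] [Fintype F] [CharP F 2] {n : ℕ} (hn : 4 ≤ n)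
    (hna : ¬ IsMulCommutative (POmega F (quadFormPlus n F))) : NoComp m (POmega F (quadFormPlus n F)) := by
  intro x hx hx1 D hD hI
  have hs := Cfsg.Agent.S0296.result (F := F) n hn
  have hfin : Finite (POmega F (quadFormPlus n F)) := Finite.of_surjective _ (QuotientGroup.mk'_surjective _)
  have hL : IsLieTypeChar 2 (POmega F (quadFormPlus n F)) :=
    Or.inr (Or.inr (Or.inr (Or.inr (Or.inl ⟨F, inferInstance, inferInstance, inferInstance, n, hn,
      ⟨MulEquiv.refl _⟩⟩))))
  obtain ⟨c, hc, hFc⟩ := card_two_pow (F := F)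
  rcases H292.OrthTwo.out_plus CharTwo.two_eq_zero hn (x := x) (by rw [← pow_two, hx]) with ⟨g, rfl⟩ | h | h |
    ⟨F₀, _, _, hF0, h | ⟨a, b, hab, h⟩⟩
  · exact ExcComp.no_comp_inner hna (Or.inl hL) hx hx1 hD
  · exact no_comp_cen (EvenType.ChevTwo.charTwo hna (Or.inl hL)) hx h hD
  · exact not_psp hD hm hI h
  · have : CharP F₀ 2 := charP_of_card (k := 2) (c := c) two_ne_zero (by rw [← hFc, ← hF0, Nat.card_eq_fintype_card])
    have := Fintype.ofFinite F₀
    exact not_plus hD hm hI hn h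
  · have : CharP F₀ 2 := charP_of_card (k := 2) (c := c) two_ne_zero (by rw [← hFc, ← hF0, Nat.card_eq_fintype_card])
    have := Fintype.ofFinite F₀
    exact not_minus hD hm hI hn hab h

theorem no_minus {F : Type} [Field F] [Fintype F] [CharP F 2] {n : ℕ} (hn : 4 ≤ n) {a b : F}
    (hab : ∀ z₁ z₂ : F, z₁ ^ 2 + a * z₁ * z₂ + b * z₂ ^ 2 = 0 → z₁ = 0 ∧ z₂ = 0)
    (hna : ¬ IsMulCommutative (POmega F (quadFormMinus (n - 1) F a b))) :
    NoComp m (POmega F (quadFormMinus (n - 1) F a b)) := by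
  intro x hx hx1 D hD hI
  have hs := Cfsg.Agent.S0297.result (F := F) n hn a b hab
  have hfin : Finite (POmega F (quadFormMinus (n - 1) F a b)) := Finite.of_surjective _ (QuotientGroup.mk'_surjective _)
  have hL : IsLieTypeChar 2 (POmega F (quadFormMinus (n - 1) F a b)) :=
    Or.inr (Or.inr (Or.inr (Or.inr (Or.inr (Or.inl ⟨F, inferInstance, inferInstance, inferInstance, n, a, b, hn, hab,
      ⟨MulEquiv.refl _⟩⟩)))))
  rcases H292.OrthTwo.out_minus CharTwo.two_eq_zero hn hab (x := x) (by rw [← pow_two, hx]) with ⟨g, rfl⟩ | h | h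
  · exact ExcComp.no_comp_inner hna (Or.inl hL) hx hx1 hD
  · exact no_comp_cen (EvenType.ChevTwo.charTwo hna (Or.inl hL)) hx h hD
  · exact not_psp hD hm hI h

end rows

end Cfsg.Agent.H829.TwFClass
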