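import Cfsg.Agent.H829.BigTwF
import Cfsg.Agent.H292.SpCen
/-!
# `2F4(q)` has elements of order eight and does not embed in `Sp_{2m}(F)`, `m ≤ 2`, `F` of characteristic two (helper829)

* `pow_four` : a 2-element of `GL_n(F)`, `n ≤ 4`, `F` of characteristic two, has order dividing four;
* `exists_eight` : `g = x₂(0,1) x₈(1,0)` satisfies `g⁴ = x₆(0,1)`;
* `not_psp`.
-/

set_option autoImplicit false

namespace Cfsg.Agent.H829.TwFEight

open Cfsg Cfsg.Lie Cfsg.Agent.KFacts.TwF4 Cfsg.Agent.KFacts.TwF4.Inst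
open Cfsg.Agent.ChevalleyStructure.TwF4.TwistedFix (Rln exists_rln)

universe u v

theorem pow_card_eq_zero {F : Type*} [Field F] {ι : Type*} [Fintype ι] [DecidableEq ι] {N : Matrix ι ι F}
    (h : IsNilpotent N) : N ^ Fintype.card ι = 0 := by
  have h1 := Matrix.isNilpotent_charpoly_sub_pow_of_isNilpotent h
  have h2 : N.charpoly = Polynomial.X ^ Fintype.card ι := by
    have h3 := h1.eq_zero
    exact sub_eq_zero.1 h3
  have h3 := Matrix.aeval_self_charpoly N
  rw [h2, map_pow, Polynomial.aeval_X] at h3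
  exact h3

/-- 2-elements of `GL_n(F)`, `n ≤ 4`, characteristic two -/
theorem pow_four {F : Type*} [Field F] [CharP F 2] {ι : Type*} [Fintype ι] [DecidableEq ι] (hι : Fintype.card ι ≤ 4)
    {M : Matrix ι ι F} {k : ℕ} (h : M ^ 2 ^ k = 1) : M ^ 4 = 1 := by
  have hp : Fact (Nat.Prime 2) := ⟨Nat.prime_two⟩
  rcases isEmpty_or_nonempty ι with hi | hi
  · exact Subsingleton.elim _ _
  have h1 : (M - 1) ^ 2 ^ k = 0 := by
    rw [sub_pow_char_pow_of_commute 2 _ (Commute.one_right M), one_pow, h, sub_self]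
  have h2 : (M - 1) ^ Fintype.card ι = 0 := pow_card_eq_zero ⟨_, h1⟩
  have h3 : (M - 1) ^ 4 = 0 := pow_eq_zero_of_le hι h2
  have h4 : (M - 1) ^ 2 ^ 2 = M ^ 2 ^ 2 - 1 := by
    rw [sub_pow_char_pow_of_commute 2 _ (Commute.one_right M), one_pow]
  have h5 : M ^ 4 - 1 = 0 := by
    have : (2 : ℕ) ^ 2 = 4 := by norm_num
    rw [this, h3] at h4
    exact h4.symm
  exact sub_eq_zero.1 h5

section Abs

variable {F : Type u} [Field F] {σ : F →+* F} {G : Type v} [Group G] (S : Sys σ G)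

include S in
/-- **An element of order eight.** -/
theorem exists_eight [CharP F 2] : ∃ g : G, g ^ 4 ≠ 1 ∧ g ^ 8 = 1 := by
  have h2 : (1 : F) + 1 = 0 := CharTwo.add_self_eq_zero 1
  have z1 : ∀ a, S.e a 0 0 = 1 := BigTwF.e_zero S
  have zo : ∀ a, S.o a 0 = 1 := BigTwF.o_zero S
  have R := S.rel
  set a := S.e 1 0 1 with ha
  set b := S.e 4 1 0 with hb
  set B := S.e 4 0 1 with hB
  set c3 := S.o 1 1 with hc3
  set c4 := S.e 2 0 1 with hc4
  set c5 := S.o 2 1 with hc5
  set c6 := S.e 3 0 1 with hc6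
  have ea : a * a = 1 := BigTwF.z_sq S 1 1
  have e4 : c4 * c4 = 1 := BigTwF.z_sq S 2 1
  have e6 : c6 * c6 = 1 := BigTwF.z_sq S 3 1
  have eB : B * B = 1 := BigTwF.z_sq S 4 1
  have e3 : c3 * c3 = 1 := BigTwF.o_sq S 1 1
  have e5 : c5 * c5 = 1 := BigTwF.o_sq S 2 1
  have bb : b * b = B := by
    rw [hb, S.e_mul, map_one, mul_one, zero_add, zero_add, h2]
  have ab : a * b = b * a * c3 * c4 * c6 := by
    have h := R.r28 0 1 1 0
    simp only [map_zero, map_one, mul_one, mul_zero, add_zero, zero_add, zo] at h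
    exact h
  have a3 : a * c3 = c3 * a := R.r23 0 1 1
  have a4 : a * c4 = c4 * a := by
    have h := R.r24 0 1 0 1
    rwa [mul_zero, zo, mul_one] at h
  have a6 : a * c6 = c6 * a := R.r26 0 1 0 1
  have b6 : c6 * b = b * c6 := by
    have h := R.r68 0 1 1 0
    rwa [zero_mul, zo, mul_one] at h
  have b4 : c4 * b = b * c4 := R.r48 0 1 1 0
  have b3 : c3 * b = b * c3 * c4 * c5 * c6 := by
    have h := R.r38 1 1 0
    simp only [map_one, mul_one, mul_zero, add_zero] at h
    exact h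
  have s34 : c3 * c4 = c4 * c3 := R.r34 1 0 1
  have s35 : c3 * c5 = c5 * c3 := R.r35 1 1
  have s36 : c3 * c6 = c6 * c3 := by
    have h := R.r36 1 0 1
    rwa [mul_zero, z1, mul_one] at h
  have s45 : c4 * c5 = c5 * c4 := R.r45 0 1 1
  have s46 : c4 * c6 = c6 * c4 := by
    have h := R.r46 0 1 0 1
    rwa [zero_mul, zo, mul_one] at h
  have s56 : c5 * c6 = c6 * c5 := R.r56 1 0 1
  have B3 : c3 * B = B * c3 * c6 := by
    have h := R.r38 1 0 1
    simp only [map_one, map_zero, mul_zero, mul_one, zero_add, zo, z1] at h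
    exact h
  have B5 : c5 * B = B * c5 := by
    have h := R.r58 1 0 1
    rwa [mul_zero, z1, mul_one] at h
  -- the square
  have g2 : (a * b) * (a * b) = B * c3 * c5 := by
    calc (a * b) * (a * b) = (b * a * c3 * c4 * c6) * (a * b) := by rw [ab]
      _ = b * a * c3 * c4 * (c6 * a) * b := by simp only [mul_assoc]
      _ = b * a * c3 * (c4 * a) * c6 * b := by rw [← a6]; simp only [mul_assoc]
      _ = b * a * (c3 * a) * c4 * c6 * b := by rw [← a4]; simp only [mul_assoc]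
      _ = b * (a * a) * c3 * c4 * (c6 * b) := by rw [← a3]; simp only [mul_assoc]
      _ = b * c3 * (c4 * b) * c6 := by rw [ea, b6, mul_one]; simp only [mul_assoc]
      _ = b * (c3 * b) * c4 * c6 := by rw [b4]; simp only [mul_assoc]
      _ = (b * b) * c3 * (c4 * c5) * (c6 * c4) * c6 := by rw [b3]; simp only [mul_assoc]
      _ = B * c3 * c5 * (c4 * c4) * (c6 * c6) := by rw [bb, s45, ← s46]; simp only [mul_assoc]
      _ = B * c3 * c5 := by rw [e4, e6, mul_one, mul_one]
  have g4 : (a * b) ^ 4 = c6 := by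
    calc (a * b) ^ 4 = ((a * b) * (a * b)) * ((a * b) * (a * b)) := by rw [show (4 : ℕ) = 2 + 2 from rfl, pow_add, pow_two]
      _ = (B * c3 * c5) * (B * c3 * c5) := by rw [g2]
      _ = B * c3 * (c5 * B) * c3 * c5 := by simp only [mul_assoc]
      _ = B * (c3 * B) * c5 * c3 * c5 := by rw [B5]; simp only [mul_assoc]
      _ = (B * B) * c3 * c6 * (c5 * c3) * c5 := by rw [B3]; simp only [mul_assoc]
      _ = (c3 * c6) * c3 * (c5 * c5) := by rw [eB, ← s35, one_mul]; simp only [mul_assoc]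
      _ = c6 * (c3 * c3) := by rw [s36, e5, mul_one]; simp only [mul_assoc]
      _ = c6 := by rw [e3, mul_one]
  refine ⟨a * b, ?_, ?_⟩
  · rw [g4]
    intro h
    have h1 : S.e 3 0 1 = S.e 3 0 0 := h.trans (z1 3).symm
    exact one_ne_zero (S.injE _ _ _ _ _ h1).2
  · rw [show (8 : ℕ) = 4 * 2 from rfl, pow_mul, g4, pow_two, e6]

end Abs

theorem exists_eight_twF {K : Type u} [Field K] [Fintype K] {m : ℕ} (hK : Fintype.card K = 2 ^ (2 * m + 1)) :
    ∃ g : ↥(twistedF4 K (2 ^ m)), g ^ 4 ≠ 1 ∧ g ^ 8 = 1 := by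
  have hc : CharP K 2 := by
    obtain ⟨r, hr⟩ := CharP.exists K
    have hrp : r.Prime := (CharP.char_is_prime_or_zero K r).resolve_right (CharP.char_ne_zero_of_finite K r)
    have := Fact.mk hrp
    obtain ⟨n, -, hn⟩ := FiniteField.card K r
    have h3 : r ∣ 2 ^ (2 * m + 1) := by rw [← hK, hn]; exact dvd_pow_self r n.ne_zero
    rw [(Nat.prime_dvd_prime_iff_eq hrp Nat.prime_two).1 (hrp.dvd_of_dvd_pow h3)] at hr
    exact hr
  obtain ⟨φ, hφ⟩ := exists_rln hK
  exact exists_eight (full hK hφ).toSys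

/-- **`2F4(q)` does not embed in `PSp_{2n}(F)`, `n ≤ 2`, `F` of characteristic two.** -/
theorem not_psp {K : Type u} [Field K] [Fintype K] {m : ℕ} (hK : Fintype.card K = 2 ^ (2 * m + 1))
    {F : Type v} [Field F] [CharP F 2] {n : ℕ} (hn : n ≤ 2) (f : ↥(twistedF4 K (2 ^ m)) →* PSp n F)
    (hf : Function.Injective f) : False := by
  obtain ⟨g, h1, h2⟩ := exists_eight_twF hK
  let y := (Cfsg.Agent.H292.SpCen.spEquiv (F := F) n).symm (f g)
  have hy : y ^ 8 = 1 := by rw [← map_pow, ← map_pow, h2, map_one, map_one]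
  have hM : (y : Matrix (Fin n ⊕ Fin n) (Fin n ⊕ Fin n) F) ^ 2 ^ 3 = 1 := by
    have := congrArg Subtype.val hy
    simpa using this
  have h3 := pow_four (by rw [Fintype.card_sum, Fintype.card_fin]; omega) hM
  have h4 : y ^ 4 = 1 := Subtype.ext (by simpa using h3)
  apply h1
  apply hf
  apply (Cfsg.Agent.H292.SpCen.spEquiv (F := F) n).symm.injective
  rw [map_pow, map_pow, map_one, map_one]
  exact h4

end Cfsg.Agent.H829.TwFEight
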