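import Cfsg.Agent.H829.TwFEight
import Cfsg.Agent.H284.SepOrd
import Cfsg.Agent.H902.SameD
import Cfsg.Agent.H902.Iso
import Cfsg.Agent.H292.Out
import Cfsg.Agent.OrdDiv.Table
import Cfsg.Agent.H183.OutPSL
import Cfsg.Agent.S0270
import Cfsg.Agent.S0282
import Cfsg.Agent.S0283
import Cfsg.Agent.S0296
import Cfsg.Agent.S0297
/-!
# What is not isomorphic to `2F4(q)`, `q ≥ 8` (helper829)

`Is m A` : `A ≅ 2F4(2^(2m+1))`. For `m ≥ 1`:
* `Is.real`, `Is.large` : the order;
* `not_lie_odd`, `not_alt`, `not_spor` ;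
* `not_core` : `A` is not a component of the fixed points of `x` if `Core x E`, `E` classical of characteristic two.
-/

set_option autoImplicit false

namespace Cfsg.Agent.H829.TwFNo

open Cfsg Cfsg.Lie Cfsg.Agent.OrdDiv Cfsg.Agent.H902 Cfsg.Agent.H902.Names

universe u v w

/-- `A ≅ 2F4(2^(2m+1))` -/
def Is (m : ℕ) (A : Type*) [Group A] : Prop :=
  ∃ (F : Type) (_ : Field F) (_ : Fintype F), Fintype.card F = 2 ^ (2 * m + 1) ∧ Nonempty (A ≃* twistedF4 F (2 ^ m))

variable {m : ℕ} {A : Type u} [Group A] {B : Type v} [Group B]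

theorem Is.congr (h : Is m A) (e : B ≃* A) : Is m B := by
  obtain ⟨F, i1, i2, h1, ⟨f⟩⟩ := h
  exact ⟨F, i1, i2, h1, ⟨e.trans f⟩⟩

theorem exists_field (m : ℕ) : ∃ (F : Type) (_ : Field F) (_ : Fintype F), Fintype.card F = 2 ^ (2 * m + 1) := by
  have : Fact (Nat.Prime 2) := ⟨Nat.prime_two⟩
  have := Fintype.ofFinite (GaloisField 2 (2 * m + 1))
  exact ⟨GaloisField 2 (2 * m + 1), inferInstance, inferInstance, by
    rw [← Nat.card_eq_fintype_card, GaloisField.card 2 _ (by omega)]⟩

/-- `2F4` over isomorphic fields -/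
theorem twF_congr {F : Type u} [Field F] {K : Type v} [Field K] (σ : F ≃+* K) (e : ℕ) :
    Nonempty (↥(twistedF4 F e) ≃* ↥(twistedF4 K e)) :=
  Iso.gen_congr σ chevF4 (Iso.f4Words_map σ e)

theorem Is.of_any {K : Type v} [Field K] [Fintype K] (hK : Fintype.card K = 2 ^ (2 * m + 1))
    (e : A ≃* ↥(twistedF4 K (2 ^ m))) : Is m A := by
  obtain ⟨F, i1, i2, hF⟩ := exists_field m
  have σ : K ≃+* F := FiniteField.ringEquivOfCardEq (by rw [hF, hK])
  obtain ⟨f⟩ := twF_congr σ (2 ^ m)
  exact ⟨F, i1, i2, hF, ⟨e.trans f⟩⟩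

theorem Is.real (hm : 1 ≤ m) (h : Is m A) : Art.Real .TF4 2 (2 * m + 1) (Nat.card A) := by
  obtain ⟨F, _, _, hF, ⟨e⟩⟩ := h
  refine ⟨Nat.prime_two, by omega, ⟨rfl, odd_two_mul_add_one m, by omega⟩, ?_⟩
  rw [Nat.card_congr e.toEquiv, (table.{0}).tf4 F m hm hF]
  change 1 * _ = (2 ^ (2 * m + 1)) ^ 12 * (_ * _ * _ * _)
  ring

theorem Is.dvd (hm : 1 ≤ m) (h : Is m A) : 2 ^ (12 * (2 * m + 1)) ∣ Nat.card A := by
  have h1 := (h.real hm).P_self
  have h2 := Art.P_dvd 2 (Nat.card A)
  rw [h1, ← pow_mul] at h2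
  have h3 : (2 * m + 1) * Art.NN .TF4 = 12 * (2 * m + 1) := by
    change (2 * m + 1) * 12 = _
    ring
  rwa [h3] at h2

theorem Is.large (hm : 1 ≤ m) (h : Is m A) : 2 ^ 36 ≤ Nat.card A := by
  have h0 := (h.real hm).M_ne
  have h1 := Nat.le_of_dvd (Nat.pos_of_ne_zero h0) (h.dvd hm)
  exact (Nat.pow_le_pow_right (by norm_num) (by omega)).trans h1

theorem Is.finite (h : Is m A) : Finite A := by
  obtain ⟨F, _, _, -, ⟨e⟩⟩ := h
  exact Finite.of_equiv _ e.symm.toEquiv

/-- not of Lie type in odd characteristic -/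
theorem not_lie_odd (hm : 1 ≤ m) (h : Is m A) {r : ℕ} (hr : r.Prime) (hr2 : r ≠ 2) (h' : IsLieTypeChar r A) :
    False := by
  obtain ⟨X, f, hX⟩ := H284.SepOrd.real_of_lie table hr h'
  have h1 := h.large hm
  rcases Art.cross_char hX (h.real hm) hr2 with h2 | h2 | h2 <;> · rw [h2] at h1; norm_num at h1

/-- not alternating -/
theorem not_alt (hm : 1 ≤ m) (h : Is m A) {n : ℕ} (hn : 5 ≤ n) (e : A ≃* ↥(alternatingGroup (Fin n))) : False := by
  have h1 := h.large hm
  rcases Art.alt_lie (h.real hm) hn (alt_card hn e).symm with h2 | h2 | h2 <;> · rw [h2] at h1; norm_num at h1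

/-- the equal characteristic -/
theorem same (hm : 1 ≤ m) (h : Is m A) {X : Art.Sh} {f : ℕ} (hX : Art.Real X 2 f (Nat.card A)) :
    X = .TF4 ∧ f = 2 * m + 1 := by
  rcases Art.same_char hX (h.real hm) with h1 | h1
  · exact h1
  · have h2 := h.large hm
    rw [h1] at h2
    norm_num at h2

/-! ### sporadic groups -/

theorem exists_spor {S : Type u} [Group S] (h : IsSporadicGroup S ∨ IsoTits S) : ∃ x ∈ spor, OrdDiv.Real x.1 S := by
  have key : ∀ g ∈ spor.map (fun x => x.1), OrdDiv.Real g S → ∃ x ∈ spor, OrdDiv.Real x.1 S := by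
    intro g hg hS
    obtain ⟨x, hx, rfl⟩ := List.mem_map.1 hg
    exact ⟨x, hx, hS⟩
  rcases h with hs | hs
  · rcases hs with hs | hs | hs | hs | hs | hs | hs | hs | hs | hs | hs | hs | hs | hs | hs | hs | hs | hs | hs | hs | hs |
      hs | hs | hs | hs | hs
    · exact key .m11 (by decide) hs
    · exact key .m12 (by decide) hs
    · exact key .m22 (by decide) hs
    · exact key .m23 (by decide) hs
    · exact key .m24 (by decide) hs
    · exact key .j1 (by decide) hs
    · exact key .j2 (by decide) hs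
    · exact key .j3 (by decide) hs
    · exact key .j4 (by decide) hs
    · exact key .co1 (by decide) hs
    · exact key .co2 (by decide) hs
    · exact key .co3 (by decide) hs
    · exact key .mcl (by decide) hs
    · exact key .hs (by decide) hs
    · exact key .suz (by decide) hs
    · exact key .he (by decide) hs
    · exact key .ru (by decide) hs
    · exact key .on (by decide) hs
    · exact key .ly (by decide) hs
    · exact key .fi22 (by decide) hs
    · exact key .fi23 (by decide) hs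
    · exact key .fi24 (by decide) hs
    · exact key .hn (by decide) hs
    · exact key .th (by decide) hs
    · exact key .b (by decide) hs
    · exact key .m (by decide) hs
  · exact key .tits (by decide) hs

theorem chk_spor : ∀ x ∈ spor, x.2 % (2 ^ 36 * 37) ≠ 0 ∧ x.2 % 2 ^ 60 ≠ 0 := by decide +kernel

/-- **`2F4(q)` is not a subgroup of a sporadic group or the Tits group.** -/
theorem not_spor (hm : 1 ≤ m) (h : Is m A) {S : Type v} [Group S] [Finite S] (hS : IsSporadicGroup S ∨ IsoTits S)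
    (f : A →* S) (hf : Function.Injective f) : False := by
  obtain ⟨x, hx, hr⟩ := exists_spor hS
  have h1 : Nat.card A ∣ x.2 := by
    rw [← (table.{v}).spor S x hx hr]
    exact Subgroup.card_dvd_of_injective f hf
  obtain ⟨h2, h3⟩ := chk_spor x hx
  rcases Nat.lt_or_ge m 2 with hlt | hge
  · obtain rfl : m = 1 := by omega
    apply h2
    apply Nat.mod_eq_zero_of_dvd
    refine dvd_trans ?_ h1
    obtain ⟨F, _, _, hF, ⟨e⟩⟩ := h
    rw [Nat.card_congr e.toEquiv, (table.{0}).tf4 F 1 le_rfl hF]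
    decide +kernel
  · apply h3
    apply Nat.mod_eq_zero_of_dvd
    refine dvd_trans ?_ (dvd_trans (h.dvd hm) h1)
    exact Nat.pow_dvd_pow 2 (by omega)

/-! ### the cores -/

open Cfsg.Agent.H292.Out

/-- the component embeds in the core -/
theorem emb_of_core {X : Type u} [Group X] {x : MulAut X} {E : Type w} [Group E] (h : Core x E)
    {A : Subgroup ↥(fixedSubgroup x)} (hA : IsComponent A) : ∃ f : ↥A →* E, Function.Injective f := by
  obtain ⟨f, h1, h2, k, h3⟩ := h
  have h4 : ∀ a : ↥A, ((a : ↥(fixedSubgroup x)) : X) ∈ f.range := fun a => h3 (le_derived hA.2 k a.2)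
  let i : ↥A →* ↥f.range := ((fixedSubgroup x).subtype.comp A.subtype).codRestrict f.range h4
  refine ⟨(MonoidHom.ofInjective h1).symm.toMonoidHom.comp i, (MonoidHom.ofInjective h1).symm.injective.comp (g := (MonoidHom.ofInjective h1).symm) ?_⟩
  intro a b hab
  exact Subtype.ext (Subtype.ext (congrArg (fun z : ↥f.range => (z : X)) hab))

section core

variable {X : Type u} [Group X] {x : MulAut X} {D : Subgroup ↥(fixedSubgroup x)} (hD : IsComponent D) (hm : 1 ≤ m)
  (hI : Is m ↥D)

include hD hm hI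

theorem not_core_small {E : Type w} [Group E] [Finite E] (h : Core x E) (hE : Nat.card E < 2 ^ 36) : False := by
  obtain ⟨f, hf⟩ := emb_of_core h hD
  have h1 := Nat.card_le_card_of_injective f hf
  have h2 := hI.large hm
  omega

theorem not_core_simple {E : Type w} [Group E] [IsSimpleGroup E] (h : Core x E) {Y : Art.Sh} {f : ℕ}
    (hY : Art.Real Y 2 f (Nat.card E)) (hne : Y ≠ .TF4) : False := by
  obtain ⟨e⟩ := h.comp hD
  rw [← Nat.card_congr e.toEquiv] at hY
  exact hne (same hm hI hY).1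

omit hD hm hI in
theorem card_two_pow {F : Type} [Field F] [Fintype F] [CharP F 2] : ∃ f : ℕ, 1 ≤ f ∧ Fintype.card F = 2 ^ f :=
  H284.SepOrd.field_pow (F := F) Nat.prime_two

theorem not_psl {F : Type} [Field F] [Fintype F] [CharP F 2] {n : ℕ} (hn : 2 ≤ n)
    (h : Core x (Matrix.ProjectiveSpecialLinearGroup (Fin n) F)) : False := by
  obtain ⟨f, hf, hF⟩ := card_two_pow (F := F)
  by_cases h4 : n = 2 → 4 ≤ Fintype.card F
  · have := H183.OutPSL.simple_psl hn h4
    rw [hF] at h4
    exact not_core_simple hD hm hI h (psl_real Nat.prime_two hf hF hn h4) (by simp)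
  · push Not at h4
    obtain ⟨rfl, h4⟩ := h4
    refine not_core_small hD hm hI h ?_
    have h5 : Nat.card (Matrix.ProjectiveSpecialLinearGroup (Fin 2) F) ≤ Nat.card (Matrix.SpecialLinearGroup (Fin 2) F) :=
      Nat.card_le_card_of_surjective _ (QuotientGroup.mk'_surjective _)
    have h6 : Nat.card (Matrix.SpecialLinearGroup (Fin 2) F) ≤ Nat.card (Matrix (Fin 2) (Fin 2) F) :=
      Nat.card_le_card_of_injective _ Subtype.val_injective
    have h7 : Nat.card (Matrix (Fin 2) (Fin 2) F) = (Fintype.card F ^ 2) ^ 2 := by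
      rw [show Matrix (Fin 2) (Fin 2) F = (Fin 2 → Fin 2 → F) from rfl, Nat.card_eq_fintype_card, Fintype.card_fun,
        Fintype.card_fun, Fintype.card_fin]
    have h8 : (Fintype.card F ^ 2) ^ 2 ≤ (3 ^ 2) ^ 2 :=
      Nat.pow_le_pow_left (Nat.pow_le_pow_left (by omega) 2) 2
    have h9 : (3 ^ 2) ^ 2 < 2 ^ 36 := by norm_num
    omega

theorem not_psu {F : Type} [Field F] [Fintype F] [CharP F 2] {n q : ℕ} (hF : Fintype.card F = q ^ 2) (hn : 3 ≤ n)
    (h : Core x (PSU n F q)) : False := by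
  obtain ⟨f, hf, rfl⟩ := H284.SepOrd.root_pow Nat.prime_two (by norm_num) (card_two_pow (F := F)) hF
  by_cases h2 : n = 3 ∧ 2 ^ f = 2
  · obtain ⟨rfl, h2⟩ := h2
    rw [h2] at h hF
    refine not_core_small hD hm hI h ?_
    rw [(Cfsg.Agent.S0282.result (F := F) hF).1]
    norm_num
  · have := Cfsg.Agent.S0283.result hF n hn h2
    exact not_core_simple hD hm hI h (psu_real Nat.prime_two hf hF hn h2) (by simp)

theorem not_psp {F : Type} [Field F] [Fintype F] [CharP F 2] {n : ℕ} (h : Core x (PSp n F)) : False := by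
  obtain ⟨f, hf, hF⟩ := card_two_pow (F := F)
  rcases Nat.lt_or_ge 2 n with h2 | h2
  · have := Cfsg.Agent.S0270.result (F := F) n (by omega) (by omega)
    exact not_core_simple hD hm hI h (psp_real Nat.prime_two hf hF (by omega) (by omega)) (by simp)
  · obtain ⟨g, hg⟩ := emb_of_core h hD
    obtain ⟨K, _, _, hK, ⟨e⟩⟩ := hI
    exact TwFEight.not_psp hK h2 (g.comp e.symm.toMonoidHom) (hg.comp e.symm.injective)

theorem not_plus {F : Type} [Field F] [Fintype F] [CharP F 2] {n : ℕ} (hn : 4 ≤ n)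
    (h : Core x (POmega F (quadFormPlus n F))) : False := by
  obtain ⟨f, hf, hF⟩ := card_two_pow (F := F)
  have := Cfsg.Agent.S0296.result (F := F) n hn
  exact not_core_simple hD hm hI h (oplus_real Nat.prime_two hf hF hn) (by simp)

theorem not_minus {F : Type} [Field F] [Fintype F] [CharP F 2] {n : ℕ} (hn : 4 ≤ n) {a b : F}
    (hab : ∀ z₁ z₂ : F, z₁ ^ 2 + a * z₁ * z₂ + b * z₂ ^ 2 = 0 → z₁ = 0 ∧ z₂ = 0)
    (h : Core x (POmega F (quadFormMinus (n - 1) F a b))) : False := by
  obtain ⟨f, hf, hF⟩ := card_two_pow (F := F)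
  have := Cfsg.Agent.S0297.result (F := F) n hn a b hab
  exact not_core_simple hD hm hI h (ominus_real Nat.prime_two hf hF hn hab) (by simp)

end core

end Cfsg.Agent.H829.TwFNo
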